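import Mathlib
import Cfsg.Agent.Lib.Helper17.ReeSolv.Defs

set_option autoImplicit false

/-!
# ReeSolv package (MAIN)

The assembly of the pure group theory packages: solvable subgroups lie in the normaliser of a
Sylow `2`-subgroup, of a Sylow `3`-subgroup, or of a `Good` subgroup.
-/

universe u

namespace Cfsg.Agent.Lib.Helper45.ReeSolv

open Cfsg.Agent.Lib.Helper17.ReeSolv

/-- a subgroup stable under conjugation by all of `S` is normalised by `S` -/
theorem main_le_normalizer {G : Type u} [Group G] (S M : Subgroup G)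
    (h : ∀ s ∈ S, ∀ x ∈ M, s * x * s⁻¹ ∈ M) : S ≤ Subgroup.normalizer (M : Set G) := by
  intro s hs
  rw [Subgroup.mem_normalizer_iff]
  intro x
  constructor
  · exact fun hx => h s hs x hx
  · intro hx
    have h1 := h s⁻¹ (S.inv_mem hs) _ hx
    rw [inv_inv] at h1
    have h2 : s⁻¹ * (s * x * s⁻¹) * s = x := by group
    rwa [h2] at h1

/-- no element of order `4`: the elements of a subgroup of `2`-power order have square `1` -/
theorem main_sq_one {G : Type u} [Group G] [Finite G] (h4 : ∀ x : G, orderOf x ≠ 4)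
    (D : Subgroup G) (hD : ∀ p : ℕ, p.Prime → p ∣ Nat.card D → p = 2) (x : G) (hx : x ∈ D) :
    x * x = 1 := by
  have hn : orderOf x ≠ 0 := (orderOf_pos x).ne'
  have h4n : ¬ 4 ∣ orderOf x := fun hd => h4 _ (orderOf_pow_orderOf_div hn hd)
  have hdvd : orderOf x ∣ Nat.card D := by
    have h1 := orderOf_dvd_natCard (⟨x, hx⟩ : D)
    rwa [Subgroup.orderOf_mk] at h1
  have hpow : orderOf x = 2 ^ (orderOf x).primeFactorsList.length :=
    Nat.eq_prime_pow_of_unique_prime_dvd hn (fun {d} hd hdx => hD d hd (hdx.trans hdvd))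
  obtain ⟨k, hk⟩ : ∃ k, k = (orderOf x).primeFactorsList.length := ⟨_, rfl⟩
  rw [← hk] at hpow
  have hk1 : k ≤ 1 := by
    by_contra hk2
    push Not at hk2
    apply h4n
    rw [hpow]
    exact pow_dvd_pow 2 hk2
  have h2 : orderOf x ∣ 2 := by
    rw [hpow]
    calc 2 ^ k ∣ 2 ^ 1 := pow_dvd_pow 2 hk1
      _ = 2 := pow_one 2
  rw [← pow_two]
  exact orderOf_dvd_iff_pow_eq_one.mp h2

theorem pkgMain : PkgMain.{u} := by
  intro hSolv hNo4 hOmega hCycP hTwo G _ _ Good h4 h8 hTI hcyc hp hW S hS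
  by_cases hbot : S = ⊥
  · obtain ⟨P⟩ : Nonempty (Sylow 2 G) := inferInstance
    refine ⟨(P : Subgroup G), ?_, Or.inl ⟨P, rfl⟩⟩
    rw [hbot]; exact bot_le
  obtain ⟨D, hDS, hDbot, hDn, hDc, hDalt⟩ := hSolv G S hS hbot
  have hSD : S ≤ Subgroup.normalizer (D : Set G) := main_le_normalizer S D hDn
  by_cases hodd : ∃ p : ℕ, p.Prime ∧ p ≠ 2 ∧ p ∣ Nat.card D
  · obtain ⟨p, hpp, hp2, hpD⟩ := hodd
    obtain ⟨M, hMD, hMbot, hMp, hMn⟩ := hOmega G D p hpp hpD hDc
    have hSMc : ∀ s ∈ S, ∀ x ∈ M, s * x * s⁻¹ ∈ M := fun s hs => hMn s (hDn s hs)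
    have hSM : S ≤ Subgroup.normalizer (M : Set G) := main_le_normalizer S M hSMc
    obtain ⟨x, hxM, hx1⟩ := (Subgroup.bot_or_exists_ne_one M).resolve_left hMbot
    by_cases hp3 : p = 3
    · subst hp3
      have : Fact (Nat.Prime 3) := ⟨hpp⟩
      have hMpg : IsPGroup 3 M := by
        intro g
        refine ⟨1, ?_⟩
        rw [pow_one]
        apply Subtype.ext
        rw [Subgroup.coe_pow]
        exact hMp g g.2
      obtain ⟨P, hMP⟩ := hMpg.exists_le_sylow
      refine ⟨(P : Subgroup G), ?_, Or.inr (Or.inl ⟨P, rfl⟩)⟩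
      intro s hs
      exact hTI P s x (hMP hxM) hx1 (hMP (hSMc s hs x hxM))
    · have hp3' : 3 < p := by have := hpp.two_le; omega
      have : Fact p.Prime := ⟨hpp⟩
      obtain ⟨y, hyo, hMy⟩ := hCycP G p M (hcyc p hp3') hMbot hMp
      obtain ⟨A, hA, hNA⟩ := hp p hpp hp3' y hyo
      refine ⟨A, ?_, Or.inr (Or.inr hA)⟩
      rw [hMy] at hSM
      exact hSM.trans hNA
  · push Not at hodd
    have hD2 : ∀ p : ℕ, p.Prime → p ∣ Nat.card D → p = 2 := by
      intro p hpp hpD
      by_contra h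
      exact hodd p hpp h hpD
    have hsq : ∀ x ∈ D, x * x = 1 := main_sq_one h4 D hD2
    obtain ⟨hcard, P0, hDP0⟩ := hTwo G D h8 hDbot hsq
    rcases hcard with h2 | h4c | ⟨P, hP⟩
    · rcases hDalt with hDeq | ⟨N, hNS, hNc, hNnc⟩
      · refine ⟨(P0 : Subgroup G), ?_, Or.inl ⟨P0, rfl⟩⟩
        rw [← hDeq]
        exact hDP0.trans Subgroup.le_normalizer
      · exfalso
        apply hNnc
        obtain ⟨t, htD, ht1⟩ := (Subgroup.bot_or_exists_ne_one D).resolve_left hDbot
        have huniq : ∀ z ∈ D, z = 1 ∨ z = t := by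
          intro z hz
          by_cases hz1 : z = 1
          · exact Or.inl hz1
          · right
            have h3 := (Nat.card_eq_two_iff' (1 : D)).mp h2
            have e := h3.unique (y₁ := ⟨z, hz⟩) (y₂ := ⟨t, htD⟩)
              (fun h => hz1 (congrArg Subtype.val h)) (fun h => ht1 (congrArg Subtype.val h))
            exact congrArg Subtype.val e
        have htc : ∀ x ∈ N, t * x = x * t := by
          intro x hx
          have hxS := hNS hx
          rcases huniq _ (hDn x hxS t htD) with h | h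
          · exfalso; apply ht1
            have h5 : t = x⁻¹ * (x * t * x⁻¹) * x := by group
            rw [h5, h]; group
          · calc t * x = (x * t * x⁻¹) * x := by rw [h]
              _ = x * t := by group
        exact hNo4 G N t h4 (hsq t htD) htc (fun x hx y hy => huniq _ (hNc x hx y hy))
    · obtain ⟨A, hA, hNA⟩ := hW D h4c hsq
      exact ⟨A, hSD.trans hNA, Or.inr (Or.inr hA)⟩
    · refine ⟨(P : Subgroup G), ?_, Or.inl ⟨P, rfl⟩⟩
      rw [← hP]; exact hSD

end Cfsg.Agent.Lib.Helper45.ReeSolv
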