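import Mathlib
import Cfsg.Agent.Lib.Helper17.ReeSolv.Defs

set_option autoImplicit false

/-!
# ReeSolv package (NO4)

In a group without elements of order `4`, a subgroup all of whose commutators lie in `{1, t}`
(`t` of square `1`, commuting with the subgroup) is commutative.
-/

universe u

namespace Cfsg.Agent.Lib.Helper45.ReeSolv

open Cfsg.Agent.Lib.Helper17.ReeSolv

/-- no element of order `4`: some odd power of `x` has square `1` -/
theorem no4_odd_exp {G : Type u} [Group G] [Finite G] (h4 : ∀ x : G, orderOf x ≠ 4) (x : G) :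
    ∃ k : ℕ, Odd k ∧ (x ^ k) * (x ^ k) = 1 := by
  have hn : orderOf x ≠ 0 := (orderOf_pos x).ne'
  have h4n : ¬ 4 ∣ orderOf x := fun hd => h4 _ (orderOf_pow_orderOf_div hn hd)
  rcases Nat.even_or_odd (orderOf x) with he | ho
  · obtain ⟨k, hk⟩ := he
    refine ⟨k, ?_, ?_⟩
    · by_contra hk2
      rw [Nat.not_odd_iff_even] at hk2
      obtain ⟨j, hj⟩ := hk2
      exact h4n ⟨j, by omega⟩
    · rw [← pow_add, ← hk, pow_orderOf_eq_one]
  · exact ⟨orderOf x, ho, by rw [pow_orderOf_eq_one, one_mul]⟩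

/-- an odd power of an element of square `1` -/
theorem no4_odd_pow {G : Type u} [Group G] (t : G) (ht : t * t = 1) {k : ℕ} (hk : Odd k) :
    t ^ k = t := by
  obtain ⟨j, rfl⟩ := hk
  rw [pow_succ, pow_mul, pow_two, ht, one_pow, one_mul]

/-- the commutator with a fixed element is multiplicative on powers, when its value is central -/
theorem no4_comm_pow {G : Type u} [Group G] (N : Subgroup G) (t : G)
    (hc : ∀ x ∈ N, t * x = x * t)
    (x y : G) (hx : x ∈ N) (hxy : x * y * x⁻¹ * y⁻¹ = t) (k : ℕ) :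
    x ^ k * y * (x ^ k)⁻¹ * y⁻¹ = t ^ k := by
  induction k with
  | zero => simp
  | succ k ih =>
    have h1 : x ^ (k + 1) * y * (x ^ (k + 1))⁻¹ * y⁻¹
        = x * (x ^ k * y * (x ^ k)⁻¹ * y⁻¹) * x⁻¹ * (x * y * x⁻¹ * y⁻¹) := by
      rw [pow_succ']; group
    have hcomm : t ^ k * x = x * t ^ k := by
      have h2 : Commute t x := hc x hx
      exact (h2.pow_left k).eq
    rw [h1, ih, hxy, ← hcomm, mul_inv_cancel_right, pow_succ]

theorem pkgNo4 : PkgNo4.{u} := by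
  intro G _ _ N t h4 ht hc hcomm x hx y hy
  by_contra hne
  have hkey : x * y = (x * y * x⁻¹ * y⁻¹) * (y * x) := by group
  have hxy : x * y * x⁻¹ * y⁻¹ = t := by
    rcases hcomm x hx y hy with h | h
    · exfalso; apply hne
      rw [hkey, h, one_mul]
    · exact h
  have ht1 : t ≠ 1 := by
    intro h1
    apply hne
    rw [hkey, hxy, h1, one_mul]
  have htinv : t⁻¹ = t := inv_eq_of_mul_eq_one_left ht
  obtain ⟨k, hk, hxk⟩ := no4_odd_exp h4 x
  have h1 : x ^ k * y * (x ^ k)⁻¹ * y⁻¹ = t := by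
    rw [no4_comm_pow N t hc x y hx hxy k]; exact no4_odd_pow t ht hk
  have h2 : y * x ^ k * y⁻¹ * (x ^ k)⁻¹ = t := by
    have h3 : y * x ^ k * y⁻¹ * (x ^ k)⁻¹ = (x ^ k * y * (x ^ k)⁻¹ * y⁻¹)⁻¹ := by group
    rw [h3, h1, htinv]
  obtain ⟨l, hl, hyl⟩ := no4_odd_exp h4 y
  have h3 : y ^ l * x ^ k * (y ^ l)⁻¹ * (x ^ k)⁻¹ = t := by
    rw [no4_comm_pow N t hc y (x ^ k) hy h2 l]; exact no4_odd_pow t ht hl
  obtain ⟨a, ha⟩ : ∃ a, a = x ^ k := ⟨_, rfl⟩
  obtain ⟨b, hb⟩ : ∃ b, b = y ^ l := ⟨_, rfl⟩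
  rw [← ha] at hxk h3
  rw [← hb] at hyl h3
  have hainv : a⁻¹ = a := inv_eq_of_mul_eq_one_left hxk
  have hbinv : b⁻¹ = b := inv_eq_of_mul_eq_one_left hyl
  have hw2 : (b * a) ^ 2 = t := by
    rw [pow_two]
    calc b * a * (b * a) = b * a * b * a := by group
      _ = b * a * b⁻¹ * a⁻¹ := by rw [hbinv, hainv]
      _ = t := h3
  apply h4 (b * a)
  have h5 : orderOf (b * a) = 2 ^ (1 + 1) := by
    apply orderOf_eq_prime_pow
    · rw [pow_one, hw2]; exact ht1
    · rw [pow_succ, pow_one, pow_mul, hw2, pow_two, ht]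
  exact h5

end Cfsg.Agent.Lib.Helper45.ReeSolv
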